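import Mathlib
import Cfsg.Agent.H617.Two.Defs
import Cfsg.Agent.H807.S45.TSevenA
import Cfsg.Agent.H809.Two.GL32
import Cfsg.Agent.S0200

/-!
# S4543, T2: local analysis (helper618)
-/

set_option autoImplicit false
set_option linter.unusedSectionVars false

namespace Cfsg.Agent.H618.TwoLoc

open Subgroup Cfsg.Agent.H617.Two

section general

variable {Q : Type*} [Group Q]

/-- The subgroup generated by the squares and `z`. -/
def sqz (z : Q) : Subgroup Q := closure ({x | ∃ v, x = v * v} ∪ {z})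

theorem sq_mem (z v : Q) : v * v ∈ sqz z := subset_closure (Or.inl ⟨v, rfl⟩)

theorem z_mem (z : Q) : z ∈ sqz z := subset_closure (Or.inr rfl)

theorem sqz_le {z : Q} {H : Subgroup Q} (hz : z ∈ H) (hsq : ∀ v, v * v ∈ H) : sqz z ≤ H := by
  rw [sqz, closure_le]
  rintro x (⟨v, rfl⟩ | rfl)
  · exact hsq v
  · exact hz

theorem aut_mem {z : Q} {β : MulAut Q} (hβ : β z = z) {x : Q} (hx : x ∈ sqz z) :
    β x ∈ sqz z := by
  have h : sqz z ≤ (sqz z).comap (β : Q →* Q) := by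
    refine sqz_le ?_ fun v => ?_
    · rw [mem_comap]
      change β z ∈ sqz z
      rw [hβ]
      exact z_mem z
    · rw [mem_comap]
      change β (v * v) ∈ sqz z
      rw [map_mul]
      exact sq_mem z _
  exact h hx

theorem aut_symm {z : Q} {β : MulAut Q} (hβ : β z = z) : β⁻¹ z = z := by
  rw [MulAut.inv_apply, MulEquiv.symm_apply_eq]
  exact hβ.symm

theorem aut_map {z : Q} {β : MulAut Q} (hβ : β z = z) : (sqz z).map (β : Q ≃* Q) = sqz z := by
  apply le_antisymm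
  · rintro _ ⟨x, hx, rfl⟩
    exact aut_mem hβ hx
  · intro x hx
    refine ⟨β⁻¹ x, aut_mem (aut_symm hβ) hx, ?_⟩
    exact MulAut.apply_inv_self Q β x

theorem sqz_normal {z : Q} (hz : ∀ x, x * z = z * x) : (sqz z).Normal := by
  refine ⟨fun n hn g => ?_⟩
  have h : (MulAut.conj g) z = z := by
    rw [MulAut.conj_apply, hz g, mul_inv_cancel_right]
  have h1 := aut_mem h hn
  rwa [MulAut.conj_apply] at h1

/-- The action on `Q` modulo squares and `z`. -/
def phi (z : Q) [(sqz z).Normal] (A : Subgroup (MulAut Q)) (hA : ∀ β ∈ A, β z = z) :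
    A →* MulAut (Q ⧸ sqz z) where
  toFun β := QuotientGroup.congr (sqz z) (sqz z) (β : MulAut Q) (aut_map (hA β β.2))
  map_one' := by
    apply MulEquiv.ext
    intro x
    obtain ⟨q, rfl⟩ := QuotientGroup.mk_surjective x
    rfl
  map_mul' β γ := by
    apply MulEquiv.ext
    intro x
    obtain ⟨q, rfl⟩ := QuotientGroup.mk_surjective x
    rfl

theorem phi_mk (z : Q) [(sqz z).Normal] (A : Subgroup (MulAut Q)) (hA : ∀ β ∈ A, β z = z)
    (β : A) (q : Q) : phi z A hA β (q : Q ⧸ sqz z) = (((β : MulAut Q) q : Q) : Q ⧸ sqz z) := rfl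

theorem phi_eq_one (z : Q) [(sqz z).Normal] (A : Subgroup (MulAut Q)) (hA : ∀ β ∈ A, β z = z)
    (β : A) : phi z A hA β = 1 ↔ ∀ q, q⁻¹ * (β : MulAut Q) q ∈ sqz z := by
  constructor
  · intro h q
    rw [← QuotientGroup.eq, ← phi_mk z A hA, h, MulAut.one_apply]
  · intro h
    apply MulEquiv.ext
    intro x
    obtain ⟨q, rfl⟩ := QuotientGroup.mk_surjective x
    rw [MulAut.one_apply, phi_mk]
    exact (QuotientGroup.eq.2 (h q)).symm

theorem quot_sq (z : Q) [(sqz z).Normal] (v : Q ⧸ sqz z) : v * v = 1 := by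
  obtain ⟨q, rfl⟩ := QuotientGroup.mk_surjective v
  rw [← QuotientGroup.mk_mul, QuotientGroup.eq_one_iff]
  exact sq_mem z q

/-- Fixed points of permutations of order a prime not dividing the size. -/
theorem exists_fixed {α : Type*} [Finite α] {l : ℕ} (hl : l.Prime) (hα : ¬ l ∣ Nat.card α)
    (f : α → α) (hf : ∀ x, f^[l] x = x) : ∃ x, f x = x := by
  classical
  have := Fintype.ofFinite α
  have : Fact l.Prime := ⟨hl⟩
  by_contra hno
  push Not at hno
  obtain ⟨F, hF⟩ : ∃ F : Function.End α, F = f := ⟨f, rfl⟩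
  have h1 : F ^ l ^ 1 = 1 := by
    rw [pow_one]
    funext x
    have h2 : ∀ n : ℕ, (F ^ n) x = f^[n] x := by
      intro n
      induction n generalizing x with
      | zero => rfl
      | succ n ih =>
        rw [pow_succ, Function.iterate_succ_apply, ← ih (f x), ← hF]
        rfl
    rw [h2]
    exact hf x
  have h2 := Equiv.Perm.card_fixedPoints_modEq (f := F) h1
  have h3 : Nat.card (Function.fixedPoints F) = 0 := by
    rw [Nat.card_eq_zero]
    left
    refine ⟨fun x => hno x.1 ?_⟩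
    rw [← hF]
    exact x.2
  rw [← Nat.card_eq_fintype_card, ← Nat.card_eq_fintype_card, h3] at h2
  exact hα ((Nat.modEq_zero_iff_dvd).1 h2)

/-- Coprime action. -/
theorem eq_one_of_prime [Finite Q] (hQ : IsPGroup 2 Q) {z : Q} [(sqz z).Normal] {l : ℕ}
    (hl : l.Prime) (hl2 : l ≠ 2) {γ : MulAut Q} (hγ : γ ^ l = 1) (hz : γ z = z)
    (h : ∀ q, q⁻¹ * γ q ∈ sqz z) : γ = 1 := by
  -- the fixed points
  let C : Subgroup Q :=
    { carrier := {q | γ q = q}
      one_mem' := map_one γ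
      mul_mem' := by
        rintro a b (ha : γ a = a) (hb : γ b = b)
        change γ (a * b) = a * b
        rw [map_mul, ha, hb]
      inv_mem' := by
        rintro a (ha : γ a = a)
        change γ a⁻¹ = a⁻¹
        rw [map_inv, ha] }
  by_cases hC : C = ⊤
  · apply MulEquiv.ext
    intro q
    have : q ∈ C := by rw [hC]; exact mem_top q
    exact this
  exfalso
  -- a subgroup of index two containing the fixed points
  obtain ⟨n, hn⟩ := IsPGroup.iff_card.1 hQ
  have hn0 : n ≠ 0 := by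
    rintro rfl
    apply hC
    rw [pow_zero] at hn
    have := (Nat.card_eq_one_iff_unique.1 hn).1
    exact Subsingleton.elim _ _
  obtain ⟨m, rfl⟩ := Nat.exists_eq_succ_of_ne_zero hn0
  obtain ⟨k, hk⟩ := IsPGroup.iff_card.1 (hQ.to_subgroup C)
  have hkm : k ≤ m := by
    by_contra hlt
    push Not at hlt
    apply hC
    apply Subgroup.eq_top_of_card_eq
    apply le_antisymm (Subgroup.card_le_card_group C)
    rw [hn, hk]
    exact Nat.pow_le_pow_right (by norm_num) hlt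
  have h2 : Fact (Nat.Prime 2) := ⟨Nat.prime_two⟩
  obtain ⟨K, hK, hCK⟩ := Sylow.exists_subgroup_card_pow_prime_le 2
    (by rw [hn]; exact pow_dvd_pow 2 (Nat.le_succ m)) C hk hkm
  have hKi : K.index = 2 := by
    have h3 := K.card_mul_index
    rw [hK, hn, pow_succ] at h3
    exact Nat.eq_of_mul_eq_mul_left (by positivity) h3
  have hWK : sqz z ≤ K := sqz_le (hCK hz) fun v => Subgroup.mul_self_mem_of_index_two hKi v
  have hK1 : K = ⊤ := by
    rw [eq_top_iff]
    intro q _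
    -- a fixed point in `q W`
    have hcard : ¬ l ∣ Nat.card (sqz z) := by
      obtain ⟨j, hj⟩ := IsPGroup.iff_card.1 (hQ.to_subgroup (sqz z))
      rw [hj]
      intro hd
      have := (Nat.prime_dvd_prime_iff_eq hl Nat.prime_two).1 (hl.dvd_of_dvd_pow hd)
      exact hl2 this
    let F : sqz z → sqz z := fun w => ⟨q⁻¹ * γ (q * w), by
      rw [map_mul, ← mul_assoc]
      exact mul_mem (h q) (aut_mem hz w.2)⟩
    have hF : ∀ (n : ℕ) (w : sqz z), ((F^[n] w : sqz z) : Q) = q⁻¹ * (γ ^ n) (q * w) := by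
      intro n
      induction n with
      | zero => intro w; simp
      | succ n ih =>
        intro w
        rw [Function.iterate_succ_apply', pow_succ', MulAut.mul_apply]
        change q⁻¹ * γ (q * (F^[n] w : sqz z)) = _
        rw [ih, mul_inv_cancel_left]
    obtain ⟨w, hw⟩ := exists_fixed hl hcard F (fun w => Subtype.ext (by
      rw [hF, hγ, MulAut.one_apply, inv_mul_cancel_left]))
    have hw' : q⁻¹ * γ (q * w) = w := congrArg Subtype.val hw
    have h3 : q * w ∈ C := by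
      change γ (q * w) = q * w
      rw [← eq_inv_mul_iff_mul_eq, inv_inv] at hw'
      exact hw'
    have h4 : q = (q * w) * (w : Q)⁻¹ := by rw [mul_inv_cancel_right]
    rw [h4]
    exact mul_mem (hCK h3) (inv_mem (hWK w.2))
  rw [hK1, index_top] at hKi
  omega

/-- The kernel is a `2`-group. -/
theorem ker_pgroup [Finite Q] (hQ : IsPGroup 2 Q) {z : Q} [(sqz z).Normal]
    (A : Subgroup (MulAut Q)) (hA : ∀ β ∈ A, β z = z) : IsPGroup 2 (phi z A hA).ker := by
  have h2 : Fact (Nat.Prime 2) := ⟨Nat.prime_two⟩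
  rw [IsPGroup.iff_card]
  by_contra hno
  -- an odd prime divisor
  obtain ⟨l, hl, hld, hl2⟩ : ∃ l, l.Prime ∧ l ∣ Nat.card (phi z A hA).ker ∧ l ≠ 2 := by
    by_contra hall
    push Not at hall
    apply hno
    refine ⟨_, Nat.eq_prime_pow_of_unique_prime_dvd Nat.card_pos.ne' fun {d} hd hdd =>
      hall d hd hdd⟩
  have : Fact l.Prime := ⟨hl⟩
  obtain ⟨γ, hγ⟩ := exists_prime_orderOf_dvd_card' l hld
  have h1 : ((γ : A) : MulAut Q) = 1 := by
    refine eq_one_of_prime hQ hl hl2 (z := z) ?_ (hA _ (γ : A).2)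
      ((phi_eq_one z A hA γ).1 γ.2)
    have h3 := pow_orderOf_eq_one γ
    rw [hγ] at h3
    exact congrArg (fun x : (phi z A hA).ker => ((x : A) : MulAut Q)) h3
  have h4 : γ = 1 := Subtype.ext (Subtype.ext h1)
  rw [h4, orderOf_one] at hγ
  exact hl.one_lt.ne hγ

end general

section main

variable {D : Type*} [Group D] [Finite D]

/-- The order of `Q` modulo the squares and `z`. -/
theorem card_quot (hG : Good D) {Q : Subgroup D} (hQ : Q ≠ ⊤) (h16 : 16 ≤ Nat.card Q)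
    {z : Q} (hz1 : z ≠ 1) [(sqz z).Normal] : Nat.card (Q ⧸ sqz z) ∣ 8 := by
  have hdvd : Nat.card Q ∣ 64 := hG.card ▸ Subgroup.card_subgroup_dvd_card Q
  have hne : Nat.card Q ≠ 64 := by
    intro h
    apply hQ
    apply Subgroup.eq_top_of_card_eq
    rw [h, hG.card]
  have hcases : Nat.card Q = 16 ∨ Nat.card Q = 32 := by
    have h1 : Nat.card Q ∈ Nat.divisors 64 := Nat.mem_divisors.2 ⟨hdvd, by norm_num⟩
    have h2 : Nat.divisors 64 = {1, 2, 4, 8, 16, 32, 64} := by decide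
    rw [h2] at h1
    simp only [Finset.mem_insert, Finset.mem_singleton] at h1
    omega
  have hmul := Subgroup.card_mul_index (sqz z)
  have hidx : Nat.card (Q ⧸ sqz z) = (sqz z).index := rfl
  rcases hcases with h | h
  · rw [h] at hmul
    have h1 : Nat.card (Q ⧸ sqz z) ∣ 16 := by
      rw [hidx]
      exact Dvd.intro_left _ hmul
    have h2 : Nat.card (sqz z) ≠ 1 := by
      intro h3
      rw [Subgroup.card_eq_one] at h3
      have := z_mem z
      rw [h3, Subgroup.mem_bot] at this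
      exact hz1 this
    have h3 : Nat.card (Q ⧸ sqz z) ∈ Nat.divisors 16 := Nat.mem_divisors.2 ⟨h1, by norm_num⟩
    have h4 : Nat.divisors 16 = {1, 2, 4, 8, 16} := by decide
    rw [h4] at h3
    simp only [Finset.mem_insert, Finset.mem_singleton] at h3
    rcases h3 with h3 | h3 | h3 | h3 | h3
    · rw [h3]; norm_num
    · rw [h3]; norm_num
    · rw [h3]; norm_num
    · rw [h3]
    · rw [← hidx, h3] at hmul
      omega
  · have hQi : Q.index = 2 := by
      have h1 := Subgroup.card_mul_index Q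
      rw [h, hG.card] at h1
      omega
    obtain ⟨b1, b2, b3, hgen⟩ := Cfsg.Agent.H807.S45.three_gen hQi hG.gen
    have hb1 : b1 ∈ Q := by rw [← hgen]; exact Subgroup.subset_closure (by simp)
    have hb2 : b2 ∈ Q := by rw [← hgen]; exact Subgroup.subset_closure (by simp)
    have hb3 : b3 ∈ Q := by rw [← hgen]; exact Subgroup.subset_closure (by simp)
    have hgen' : closure ({⟨b1, hb1⟩, ⟨b2, hb2⟩, ⟨b3, hb3⟩} : Set Q) = ⊤ := by
      apply Subgroup.map_injective Q.subtype_injective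
      rw [MonoidHom.map_closure, ← MonoidHom.range_eq_map, Subgroup.range_subtype]
      refine Eq.trans ?_ hgen
      congr 1
      ext x
      simp [Set.image_insert_eq, Set.image_singleton]
    have h8 : Nat.card (Q ⧸ sqz z) ≤ 8 := by
      refine Cfsg.Agent.H807.S45.card_le_eight (b1 := QuotientGroup.mk' (sqz z) ⟨b1, hb1⟩)
        (b2 := QuotientGroup.mk' (sqz z) ⟨b2, hb2⟩) (b3 := QuotientGroup.mk' (sqz z) ⟨b3, hb3⟩)
        ?_ (quot_sq z)
      rw [eq_top_iff]
      intro x _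
      obtain ⟨q, rfl⟩ := QuotientGroup.mk_surjective x
      have h1 : q ∈ closure ({⟨b1, hb1⟩, ⟨b2, hb2⟩, ⟨b3, hb3⟩} : Set Q) := by
        rw [hgen']; exact mem_top q
      have h2 := Subgroup.mem_map_of_mem (QuotientGroup.mk' (sqz z)) h1
      rw [MonoidHom.map_closure] at h2
      simpa [Set.image_insert_eq, Set.image_singleton] using h2
    have h1 : Nat.card (Q ⧸ sqz z) ∣ 32 := by
      rw [hidx, ← h]
      exact Dvd.intro_left _ hmul
    have h3 : Nat.card (Q ⧸ sqz z) ∈ Nat.divisors 32 := Nat.mem_divisors.2 ⟨h1, by norm_num⟩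
    have h4 : Nat.divisors 32 = {1, 2, 4, 8, 16, 32} := by decide
    rw [h4] at h3
    simp only [Finset.mem_insert, Finset.mem_singleton] at h3
    rcases h3 with h3 | h3 | h3 | h3 | h3 | h3
    · rw [h3]; norm_num
    · rw [h3]; norm_num
    · rw [h3]; norm_num
    · rw [h3]
    · omega
    · omega

/-- An element outside `Q` normalizing `Q` with square in `Q`. -/
theorem exists_y (h2 : IsPGroup 2 D) {Q : Subgroup D} (hQ : Q ≠ ⊤) :
    ∃ y ∈ normalizer (Q : Set D), y ∉ Q ∧ y * y ∈ Q := by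
  have : Fact (Nat.Prime 2) := ⟨Nat.prime_two⟩
  have hnil : Group.IsNilpotent D := h2.isNilpotent
  have hlt := Group.normalizerCondition_of_isNilpotent (G := D) Q (lt_top_iff_ne_top.2 hQ)
  obtain ⟨y, hyN, hyQ⟩ := SetLike.exists_of_lt hlt
  obtain ⟨k, hk⟩ := h2 y
  classical
  have hex : ∃ k, y ^ 2 ^ k ∈ Q := ⟨k, by rw [hk]; exact one_mem Q⟩
  obtain ⟨m, hm⟩ : ∃ m, m = Nat.find hex := ⟨_, rfl⟩
  have hm1 : y ^ 2 ^ m ∈ Q := by rw [hm]; exact Nat.find_spec hex
  rcases m with _ | m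
  · rw [pow_zero, pow_one] at hm1
    exact absurd hm1 hyQ
  · refine ⟨y ^ 2 ^ m, pow_mem hyN _, Nat.find_min hex (by omega), ?_⟩
    rw [← pow_two, ← pow_mul, ← pow_succ]
    exact hm1

theorem exists_loc (h2 : IsPGroup 2 D) {Q : Subgroup D} {z : D}
    (hz : z ∈ center D) (hz1 : z ≠ 1) (hQ : Q ≠ ⊤) (hzQ : z ∈ Q)
    (cent : ∀ x : D, (∀ q ∈ Q, x * q = q * x) → x ∈ Q)
    (A : Subgroup (MulAut Q)) (hfix : ∀ β ∈ A, ∀ q : Q, (q : D) = z → β q = q)
    (T : Subgroup (MulAut Q))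
    (hT : ∀ β : MulAut Q, β ∈ T ↔ ∃ x : D, ∀ q : Q, ((β q : Q) : D) = x * q * x⁻¹)
    (hTA : T ≤ A)
    (hrad : ∀ N : Subgroup A, N.Normal → IsPGroup 2 N → ∀ β ∈ N, ∃ x ∈ Q,
      ∀ q : Q, ((((β : A) : MulAut Q) q : Q) : D) = x * q * x⁻¹)
    {V : Type*} [Group V] [Finite V] (h8 : Nat.card V ∣ 8) (hel : ∀ v : V, v * v = 1)
    (φ : A →* MulAut V) (hker : IsPGroup 2 φ.ker)
    (hinn : ∀ β : A, (∃ x ∈ Q, ∀ q : Q, (((β : MulAut Q) q : Q) : D) = x * q * x⁻¹) → φ β = 1) :
    ∃ (a : D → D) (y : D), Loc Q z a y := by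
  classical
  obtain ⟨y, hyN, hyQ, hyy⟩ := exists_y h2 hQ
  obtain ⟨cy, hcy⟩ : ∃ c : MulAut Q, ∀ q : Q, ((c q : Q) : D) = y * q * y⁻¹ :=
    ⟨Q.normalizerMonoidHom ⟨y, hyN⟩, fun q => rfl⟩
  have hcyT : cy ∈ T := (hT cy).2 ⟨y, hcy⟩
  obtain ⟨c, hc⟩ : ∃ c : A, c = ⟨cy, hTA hcyT⟩ := ⟨_, rfl⟩
  have hcq : ∀ q : Q, (((c : MulAut Q) q : Q) : D) = y * q * y⁻¹ := by
    intro q; rw [hc]; exact hcy q
  -- `c` is not inner
  have hnotinn : ¬ ∃ x ∈ Q, ∀ q : Q, (((c : MulAut Q) q : Q) : D) = x * q * x⁻¹ := by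
    rintro ⟨x, hx, h⟩
    apply hyQ
    have h1 : x⁻¹ * y ∈ Q := by
      apply cent
      intro q hq
      have h2 := (hcq ⟨q, hq⟩).symm.trans (h ⟨q, hq⟩)
      have h3 : y * q * y⁻¹ = x * q * x⁻¹ := h2
      calc x⁻¹ * y * q = x⁻¹ * (y * q * y⁻¹) * y := by group
        _ = x⁻¹ * (x * q * x⁻¹) * y := by rw [h3]
        _ = q * (x⁻¹ * y) := by group
    have h2 := mul_mem hx h1
    rwa [mul_inv_cancel_left] at h2
  have htt : φ c * φ c = 1 := by
    rw [← map_mul]
    refine hinn _ ⟨y * y, hyy, fun q => ?_⟩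
    have h1 : (((c * c : A) : MulAut Q) q : Q) = (c : MulAut Q) ((c : MulAut Q) q) := rfl
    rw [h1, hcq, hcq]
    group
  -- the element of order three
  obtain ⟨t, ht⟩ : ∃ t : φ.range, t = ⟨φ c, c, rfl⟩ := ⟨_, rfl⟩
  have hO : ∀ N : Subgroup φ.range, N.Normal → IsPGroup 2 N → t ∉ N := by
    intro N hN hNp htN
    have h1 : IsPGroup 2 (N.comap φ.rangeRestrict) := by
      refine hNp.comap_of_ker_isPGroup _ ?_
      rw [MonoidHom.ker_rangeRestrict]
      exact hker
    have h2 : (N.comap φ.rangeRestrict).Normal := hN.comap _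
    refine hnotinn (hrad _ h2 h1 c ?_)
    rw [Subgroup.mem_comap]
    have : φ.rangeRestrict c = t := by rw [ht]; rfl
    rw [this]
    exact htN
  have ht1 : t ≠ 1 := by
    intro h
    refine hO ⊥ inferInstance (IsPGroup.of_bot) ?_
    rw [h]
    exact one_mem _
  have hord : orderOf t = 2 := by
    refine orderOf_eq_prime ?_ ht1
    rw [pow_two, ht]
    exact Subtype.ext htt
  obtain ⟨h, hh1, hodd, hinv⟩ := Cfsg.Agent.S0200.result t hord hO
  have hinv' : φ c * (h : MulAut V) * (φ c)⁻¹ = (h : MulAut V)⁻¹ := by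
    have h1 := congrArg Subtype.val hinv
    rw [ht] at h1
    exact h1
  have h3 : (h : MulAut V) ^ 3 = 1 := by
    refine Cfsg.Agent.H809.Two.T1b h8 hel (φ c) h htt hinv' ?_
    rw [Subgroup.orderOf_coe]
    exact hodd
  obtain ⟨α0, hα0⟩ := h.2
  have hk0 : α0 ^ 3 ∈ φ.ker := by
    rw [MonoidHom.mem_ker, map_pow, hα0, h3]
  obtain ⟨j, hj⟩ := hker ⟨_, hk0⟩
  have hj' : (α0 ^ 3) ^ 2 ^ j = 1 := congrArg Subtype.val hj
  obtain ⟨α, hα⟩ : ∃ α : A, α = α0 ^ 4 ^ j := ⟨_, rfl⟩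
  have hα3 : α ^ 3 = 1 := by
    rw [hα, ← pow_mul, mul_comm, pow_mul]
    have h4 : (4 : ℕ) ^ j = 2 ^ j * 2 ^ j := by
      rw [← mul_pow]
      norm_num
    rw [h4, pow_mul, hj', one_pow]
  have hφα : φ α = (h : MulAut V) := by
    rw [hα, map_pow, hα0]
    have h4 : (4 : ℕ) ^ j % 3 = 1 := by
      rw [Nat.pow_mod]
      norm_num
    have h5 : (4 : ℕ) ^ j = 3 * (4 ^ j / 3) + 1 := by omega
    rw [h5, pow_add, pow_mul, h3, one_pow, one_mul, pow_one]
  obtain ⟨β, hβ⟩ : ∃ β : A, β = c * α * c⁻¹ := ⟨_, rfl⟩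
  have hφβ : φ β * φ α = 1 := by
    rw [hβ, map_mul, map_mul, map_inv, hφα, hinv', inv_mul_cancel]
  have hβ3 : β ^ 3 = 1 := by
    rw [hβ, conj_pow, hα3, mul_one, mul_inv_cancel]
  -- a fixed point
  have hcard : ¬ 3 ∣ Nat.card φ.ker := by
    have : Fact (Nat.Prime 2) := ⟨Nat.prime_two⟩
    obtain ⟨n, hn⟩ := IsPGroup.iff_card.1 hker
    rw [hn]
    intro hd
    have := (Nat.prime_dvd_prime_iff_eq Nat.prime_three Nat.prime_two).1
      (Nat.prime_three.dvd_of_dvd_pow hd)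
    omega
  let F : φ.ker → φ.ker := fun n => ⟨β * n * α, by
    rw [MonoidHom.mem_ker, map_mul, map_mul, MonoidHom.mem_ker.1 n.2, mul_one, hφβ]⟩
  have hF : ∀ (k : ℕ) (n : φ.ker), ((F^[k] n : φ.ker) : A) = β ^ k * n * α ^ k := by
    intro k
    induction k with
    | zero => intro n; simp
    | succ k ih =>
      intro n
      rw [Function.iterate_succ_apply']
      change β * (F^[k] n : φ.ker) * α = _
      rw [ih, pow_succ', pow_succ]
      simp only [mul_assoc]
  obtain ⟨n, hn⟩ := exists_fixed Nat.prime_three hcard F (fun n => Subtype.ext (by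
    rw [hF, hβ3, hα3, one_mul, mul_one]))
  have hn' : β * n * α = n := congrArg Subtype.val hn
  obtain ⟨x, hx, hxn⟩ := hrad φ.ker inferInstance hker n n.2
  -- the relation
  have hrel : α * ((n : A)⁻¹ * c) * α = (n : A)⁻¹ * c := by
    rw [hβ] at hn'
    have h4 : c * α * c⁻¹ * (n : A) = n * α⁻¹ := by
      rw [eq_mul_inv_iff_mul_eq]
      exact hn'
    have h5 : (n : A)⁻¹ * c * α = α⁻¹ * (n : A)⁻¹ * c := by
      calc (n : A)⁻¹ * c * α = (n : A)⁻¹ * (c * α * c⁻¹ * n) * ((n : A)⁻¹ * c) := by group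
        _ = (n : A)⁻¹ * (n * α⁻¹) * ((n : A)⁻¹ * c) := by rw [h4]
        _ = α⁻¹ * (n : A)⁻¹ * c := by group
    calc α * ((n : A)⁻¹ * c) * α = α * ((n : A)⁻¹ * c * α) := by group
      _ = α * (α⁻¹ * (n : A)⁻¹ * c) := by rw [h5]
      _ = (n : A)⁻¹ * c := by group
  have hc' : ∀ q : Q, (((((n : A)⁻¹ * c : A) : MulAut Q) q : Q) : D) =
      (x⁻¹ * y) * q * (x⁻¹ * y)⁻¹ := by
    intro q
    obtain ⟨r, hr⟩ : ∃ r, r = (((n : A)⁻¹ * c : A) : MulAut Q) q := ⟨_, rfl⟩
    have h4 : ((n : A) : MulAut Q) r = (c : MulAut Q) q := by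
      rw [hr]
      have : ((n : A) : MulAut Q) ((((n : A)⁻¹ * c : A) : MulAut Q) q) =
          (((n : A) * ((n : A)⁻¹ * c) : A) : MulAut Q) q := rfl
      rw [this, mul_inv_cancel_left]
    have h5 := hxn r
    rw [h4, hcq] at h5
    rw [← hr]
    calc (r : D) = x⁻¹ * (x * r * x⁻¹) * x := by group
      _ = x⁻¹ * (y * q * y⁻¹) * x := by rw [← h5]
      _ = (x⁻¹ * y) * q * (x⁻¹ * y)⁻¹ := by group
  let a : D → D := fun x => if hx : x ∈ Q then (((α : MulAut Q) ⟨x, hx⟩ : Q) : D) else x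
  have ha : ∀ q : Q, a q = (((α : MulAut Q) q : Q) : D) := fun q => dif_pos q.2
  refine ⟨a, x⁻¹ * y, ?_⟩
  refine
    { zc := hz
      z1 := hz1
      cent := cent
      map := fun q hq => by rw [ha ⟨q, hq⟩]; exact SetLike.coe_mem _
      mul := fun q hq r hr => by
        have h1 := ha (⟨q, hq⟩ * ⟨r, hr⟩)
        rw [map_mul] at h1
        rw [ha ⟨q, hq⟩, ha ⟨r, hr⟩]
        exact h1
      cube := fun q hq => by
        rw [ha ⟨q, hq⟩, ha, ha]
        have h1 : (α : MulAut Q) ((α : MulAut Q) ((α : MulAut Q) ⟨q, hq⟩)) =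
          ((α ^ 3 : A) : MulAut Q) ⟨q, hq⟩ := by
          rw [pow_succ, pow_two]
          rfl
        rw [h1, hα3]
        rfl
      ne := ?_
      az := by
        rw [ha ⟨z, hzQ⟩, hfix _ α.2 ⟨z, hzQ⟩ rfl]
      yQ := fun h4 => hyQ (by
        have h5 := mul_mem hx h4
        rwa [mul_inv_cancel_left] at h5)
      yN := fun q hq => by
        rw [← hc' ⟨q, hq⟩]
        exact SetLike.coe_mem _
      yy := by
        have h4 : y * x⁻¹ * y⁻¹ ∈ Q := by
          have h5 := hcq ⟨x⁻¹, inv_mem hx⟩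
          change _ = y * x⁻¹ * y⁻¹ at h5
          rw [← h5]
          exact SetLike.coe_mem _
        have h5 : x⁻¹ * y * (x⁻¹ * y) = x⁻¹ * (y * x⁻¹ * y⁻¹) * (y * y) := by group
        rw [h5]
        exact mul_mem (mul_mem (inv_mem hx) h4) hyy
      inv := fun q hq => by
        have h4 := hc' ((α : MulAut Q) ⟨q, hq⟩)
        rw [← ha ⟨q, hq⟩] at h4
        change _ = x⁻¹ * y * a q * (x⁻¹ * y)⁻¹ at h4
        rw [← h4, ha]
        have h5 : (α : MulAut Q) ((((n : A)⁻¹ * c : A) : MulAut Q) ((α : MulAut Q) ⟨q, hq⟩)) =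
          ((α * ((n : A)⁻¹ * c) * α : A) : MulAut Q) ⟨q, hq⟩ := rfl
        rw [h5, hrel, hc' ⟨q, hq⟩] }
  by_contra hno
  push Not at hno
  apply hh1
  have h4 : α = 1 := by
    apply Subtype.ext
    apply MulEquiv.ext
    intro q
    apply Subtype.ext
    rw [← ha q, hno q q.2]
    rfl
  apply Subtype.ext
  rw [← hφα, h4, map_one]
  rfl

end main

end Cfsg.Agent.H618.TwoLoc
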