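import Mathlib
import Cfsg.Agent.H618.TwoLoc
import Cfsg.Agent.H617.Two.CardNorm

/-!
# S4543, T2 (helper618)
-/

set_option autoImplicit false
set_option linter.unusedSectionVars false

namespace Cfsg.Agent.H618.TwoT2

open Subgroup Cfsg.Agent.H617.Two Cfsg.Agent.H618.TwoLoc

theorem T2 {D : Type*} [Group D] [Finite D] (hG : Good D) {Q : Subgroup D} {z : D}
    (hz : z ∈ center D) (hz1 : z ≠ 1) (hQ : Q ≠ ⊤) (h16 : 16 ≤ Nat.card Q)
    (cent : ∀ x : D, (∀ q ∈ Q, x * q = q * x) → x ∈ Q)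
    (A : Subgroup (MulAut Q)) (hfix : ∀ β ∈ A, ∀ q : Q, (q : D) = z → β q = q)
    (T : Subgroup (MulAut Q))
    (hT : ∀ β : MulAut Q, β ∈ T ↔ ∃ x : D, ∀ q : Q, ((β q : Q) : D) = x * q * x⁻¹)
    (hTA : T ≤ A) (hsyl : ¬ 2 ∣ T.relIndex A)
    (hrad : ∀ N : Subgroup A, N.Normal → IsPGroup 2 N → ∀ β ∈ N, ∃ x ∈ Q,
      ∀ q : Q, ((((β : A) : MulAut Q) q : Q) : D) = x * q * x⁻¹) :
    (Nat.card Q = 16 → Nat.card (normalizer (Q : Set D)) = 32) ∧
      ∃ (a : D → D) (y : D), Loc Q z a y := by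
  have h2 : IsPGroup 2 D := IsPGroup.of_card (n := 6) (by rw [hG.card]; norm_num)
  have hzQ : z ∈ Q := cent z fun q _ => (mem_center_iff.1 hz q).symm
  obtain ⟨z', hz'⟩ : ∃ z' : Q, z' = ⟨z, hzQ⟩ := ⟨_, rfl⟩
  have hzc : (z' : D) = z := by rw [hz']
  have hz'1 : z' ≠ 1 := by
    intro h
    rw [h] at hzc
    exact hz1 hzc.symm
  have hcent : ∀ x : Q, x * z' = z' * x := fun x => Subtype.ext (by
    rw [Subgroup.coe_mul, Subgroup.coe_mul, hzc]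
    exact mem_center_iff.1 hz x)
  have hn := sqz_normal hcent
  have hA : ∀ β ∈ A, β z' = z' := fun β hβ => hfix β hβ z' hzc
  have hQ2 : IsPGroup 2 Q := h2.to_subgroup Q
  have hcard := card_quot hG hQ h16 hz'1
  have hker := ker_pgroup hQ2 A hA
  have hinn : ∀ β : A, (∃ x ∈ Q, ∀ q : Q, (((β : MulAut Q) q : Q) : D) = x * q * x⁻¹) →
      phi z' A hA β = 1 := by
    rintro β ⟨x, hx, h⟩
    rw [phi_eq_one]
    intro q
    obtain ⟨x', hx'⟩ : ∃ x' : Q, x' = ⟨x, hx⟩ := ⟨_, rfl⟩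
    have h1 : (β : MulAut Q) q = x' * q * x'⁻¹ := Subtype.ext (by
      rw [h q, hx']
      rfl)
    have h3 : q⁻¹ * (β : MulAut Q) q = (q⁻¹ * q⁻¹) * ((q * x') * (q * x')) * (x'⁻¹ * x'⁻¹) := by
      rw [h1]
      group
    rw [h3]
    exact mul_mem (mul_mem (sq_mem _ _) (sq_mem _ _)) (sq_mem _ _)
  refine ⟨fun h => ?_, ?_⟩
  · exact card_norm hG.card h cent A T hT hTA hsyl hrad hcard (quot_sq z') (phi z' A hA) hker hinn
  · exact exists_loc h2 hz hz1 hQ hzQ cent A hfix T hT hTA hrad hcard (quot_sq z') (phi z' A hA)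
      hker hinn

end Cfsg.Agent.H618.TwoT2
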